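import Cfsg.Agent.H141.Ux.Defs
import Cfsg.Agent.H105.SLExt

/-!
# Counting with `SL(V)` (S5716, helper627)

* `slV_trans` : `SL(V)` is transitive on independent families of fewer than `dim V` vectors;
* `cnt_le` : the number of `h ∈ SL(V)` mapping an independent family of `k` vectors into a set `S` of families is at most
  `2 ^ k |S| |SL(V)| / q ^ (k n)`;
* `cnt_eig` : `x (g v) ∈ g U` for at most `8 |SL(V)| / q` elements `g`, if `x` is not scalar, `v ≠ 0` and `U ≠ V`.
-/

set_option autoImplicit false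

namespace Cfsg.Agent.H627.Ux

open Module Cfsg.Agent.H847.Bs Cfsg.Agent.H141.Ux

section

variable {F V : Type*} [Field F] [AddCommGroup V] [Module F V]

theorem exists_not_mem [FiniteDimensional F V] {W : Submodule F V} (h : finrank F W < finrank F V) : ∃ t, t ∉ W := by
  by_contra hc
  push Not at hc
  have : W = ⊤ := Submodule.eq_top_iff'.2 hc
  rw [this, finrank_top] at h
  omega

/-- `SL(V)` is transitive on small families -/
theorem slV_trans [FiniteDimensional F V] {ι : Type*} [Fintype ι] {u v : ι → V} (hu : LinearIndependent F u)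
    (hv : LinearIndependent F v) (h : Fintype.card ι < finrank F V) : ∃ g ∈ slV F V, ∀ i, g (u i) = v i := by
  obtain ⟨s, hs⟩ := exists_not_mem (F := F) (V := V) (W := Submodule.span F (Set.range u)) (by
    rwa [finrank_span_eq_card hu])
  obtain ⟨t, ht⟩ := exists_not_mem (F := F) (V := V) (W := Submodule.span F (Set.range v)) (by
    rwa [finrank_span_eq_card hv])
  obtain ⟨g, c, -, hg⟩ := H105.exists_sl (u := fun o : Option ι => (o.casesOn' s u : V))
    (v := fun o : Option ι => (o.casesOn' t v : V)) (linearIndependent_option'.2 ⟨hu, hs⟩)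
    (linearIndependent_option'.2 ⟨hv, ht⟩) none
  refine ⟨g.1, ?_, fun i => hg (some i) (by simp)⟩
  have h1 : LinearEquiv.det g.1 = 1 := g.2
  show LinearMap.det (g.1 : V →ₗ[F] V) = 1
  rw [← LinearEquiv.coe_det, h1, Units.val_one]

variable [Finite F] [Finite V]

omit [Finite F] in
instance instFiniteEquiv : Finite (V ≃ₗ[F] V) :=
  Finite.of_injective (fun g => (g : V → V)) DFunLike.coe_injective

/-- the number of elements mapping an independent family into a set -/
theorem cnt_mul_le {k : ℕ} (hk : k < finrank F V) {t : Fin k → V} (ht : LinearIndependent F t) (S : Set (Fin k → V)) :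
    Nat.card {h : V ≃ₗ[F] V // h ∈ slV F V ∧ (fun i => h (t i)) ∈ S} *
      Nat.card {s : Fin k → V // LinearIndependent F s} ≤ Nat.card S * Nat.card (slV F V) := by
  classical
  have hfd : FiniteDimensional F V := Module.Finite.of_finite
  have hex : ∀ s : Fin k → V, ∃ g : V ≃ₗ[F] V, LinearIndependent F s → g ∈ slV F V ∧ ∀ i, g (t i) = s i := by
    intro s
    by_cases hs : LinearIndependent F s
    · obtain ⟨g, hg, h1⟩ := slV_trans ht hs (by rwa [Fintype.card_fin])
      exact ⟨g, fun _ => ⟨hg, h1⟩⟩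
    · exact ⟨1, fun h => absurd h hs⟩
  choose g hg using hex
  have hli : ∀ h : V ≃ₗ[F] V, LinearIndependent F (fun i => h (t i)) := fun h =>
    ht.map' (h : V →ₗ[F] V) h.ker
  rw [← Nat.card_prod, ← Nat.card_prod]
  refine Nat.card_le_card_of_injective (fun p => (⟨fun i => p.1.1 (t i), p.1.2.2⟩,
    ⟨g p.2.1 * (g (fun i => p.1.1 (t i)))⁻¹ * p.1.1, ?_⟩)) ?_
  · exact mul_mem (mul_mem (hg _ p.2.2).1 (inv_mem (hg _ (hli _)).1)) p.1.2.1
  · rintro ⟨⟨h, h1, h2⟩, s, hs⟩ ⟨⟨h', h1', h2'⟩, s', hs'⟩ hab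
    simp only [Prod.mk.injEq, Subtype.mk.injEq] at hab
    obtain ⟨e1, e2⟩ := hab
    -- the value at `t`
    have key : ∀ (h : V ≃ₗ[F] V) (s : Fin k → V), LinearIndependent F s → ∀ i,
        (g s * (g (fun i => h (t i)))⁻¹ * h) (t i) = s i := by
      intro h s hs i
      have e3 : (g (fun i => h (t i)))⁻¹ (h (t i)) = t i := by
        have := (hg _ (hli h)).2 i
        rw [← this]
        exact (g (fun i => h (t i))).symm_apply_apply _
      show g s ((g (fun i => h (t i)))⁻¹ (h (t i))) = s i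
      rw [e3]
      exact (hg s hs).2 i
    have e4 : s = s' := by
      funext i
      rw [← key h s hs i, ← key h' s' hs' i, e2]
    subst e4
    have e5 : h = h' := by
      rw [← e1] at e2
      exact mul_left_cancel e2
    subst e5
    rfl

theorem card_li_ge {k : ℕ} (hk : k ≤ finrank F V) :
    Nat.card F ^ (k * finrank F V) ≤ 2 ^ k * Nat.card {s : Fin k → V // LinearIndependent F s} := by
  have := Fintype.ofFinite F
  have hfd : FiniteDimensional F V := Module.Finite.of_finite
  rw [card_linearIndependent hk, ← Nat.card_eq_fintype_card]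
  have h1 : ∀ i : Fin k, Nat.card F ^ finrank F V ≤ 2 * (Nat.card F ^ finrank F V - Nat.card F ^ (i : ℕ)) := by
    intro i
    have h2 : 2 ≤ Nat.card F := Finite.one_lt_card
    have h3 : Nat.card F ^ (i : ℕ) * 2 ≤ Nat.card F ^ finrank F V := by
      calc Nat.card F ^ (i : ℕ) * 2 ≤ Nat.card F ^ (i : ℕ) * Nat.card F := Nat.mul_le_mul_left _ h2
        _ = Nat.card F ^ ((i : ℕ) + 1) := (pow_succ _ _).symm
        _ ≤ _ := Nat.pow_le_pow_right (by omega) (by omega)
    omega
  calc Nat.card F ^ (k * finrank F V) = ∏ _i : Fin k, Nat.card F ^ finrank F V := by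
        rw [Finset.prod_const, Finset.card_univ, Fintype.card_fin, ← pow_mul, mul_comm]
    _ ≤ ∏ i : Fin k, 2 * (Nat.card F ^ finrank F V - Nat.card F ^ (i : ℕ)) := Finset.prod_le_prod' fun i _ => h1 i
    _ = _ := by rw [Finset.prod_mul_distrib, Finset.prod_const, Finset.card_univ, Fintype.card_fin]

/-- **counting** -/
theorem cnt_le {k : ℕ} (hk : k < finrank F V) {t : Fin k → V} (ht : LinearIndependent F t) (S : Set (Fin k → V)) :
    Nat.card {h : V ≃ₗ[F] V // h ∈ slV F V ∧ (fun i => h (t i)) ∈ S} * Nat.card F ^ (k * finrank F V) ≤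
      2 ^ k * (Nat.card S * Nat.card (slV F V)) := by
  calc _ ≤ Nat.card {h : V ≃ₗ[F] V // h ∈ slV F V ∧ (fun i => h (t i)) ∈ S} *
        (2 ^ k * Nat.card {s : Fin k → V // LinearIndependent F s}) := Nat.mul_le_mul_left _ (card_li_ge hk.le)
    _ = 2 ^ k * (Nat.card {h : V ≃ₗ[F] V // h ∈ slV F V ∧ (fun i => h (t i)) ∈ S} *
        Nat.card {s : Fin k → V // LinearIndependent F s}) := by ring
    _ ≤ _ := Nat.mul_le_mul_left _ (cnt_mul_le hk ht S)

omit [Finite F] [Finite V] in
/-- double counting -/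
theorem dbl {α β : Type*} [Finite α] [Finite β] (P : α → β → Prop) (E : Set α) (M A B : ℕ)
    (hE : ∀ a ∈ E, Nat.card {b // P a b} * M ≤ B) (hE' : ∀ a ∉ E, Nat.card {b // P a b} * M ≤ A) :
    Nat.card {p : α × β // P p.1 p.2} * M ≤ Nat.card α * A + Nat.card E * B := by
  classical
  have := Fintype.ofFinite α
  have e1 : {p : α × β // P p.1 p.2} ≃ Σ a, {b // P a b} :=
    { toFun := fun p => ⟨p.1.1, p.1.2, p.2⟩
      invFun := fun p => ⟨(p.1, p.2.1), p.2.2⟩
      left_inv := fun _ => rfl
      right_inv := fun _ => rfl }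
  rw [Nat.card_congr e1, Nat.card_sigma, Finset.sum_mul]
  have h1 : ∀ a ∈ (Finset.univ : Finset α), Nat.card {b // P a b} * M ≤ A + if a ∈ E then B else 0 := by
    intro a _
    split_ifs with h
    · exact (hE a h).trans (Nat.le_add_left _ _)
    · exact hE' a h
  refine (Finset.sum_le_sum h1).trans ?_
  rw [Finset.sum_add_distrib, Finset.sum_const, Finset.card_univ, smul_eq_mul, ← Nat.card_eq_fintype_card,
    ← Finset.sum_filter, Finset.sum_const, smul_eq_mul]
  refine Nat.add_le_add_left (Nat.mul_le_mul_right _ (le_of_eq ?_)) _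
  rw [Nat.card_coe_set_eq, Set.ncard_eq_toFinset_card']
  congr 1
  ext a
  simp

omit [Finite F] [Finite V] in
theorem exists_not_eig [FiniteDimensional F V] {x : V ≃ₗ[F] V} (hx : ¬ Sca x) : ∃ u, ∀ c : F, x u ≠ c • u := by
  by_contra hcon
  push Not at hcon
  apply hx
  obtain ⟨a, ha⟩ := LinearMap.exists_eq_smul_id_of_forall_notLinearIndependent (f := (x : V →ₗ[F] V)) (by
    intro v h
    obtain ⟨c, hc⟩ := hcon v
    have hv : v ≠ 0 := h.ne_zero 0
    rw [LinearIndependent.pair_iff' hv] at h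
    exact h c hc.symm)
  exact ⟨a, fun v => by
    have := LinearMap.congr_fun ha v
    simpa using this⟩

/-- the number of eigenvectors -/
theorem card_eig {x : V ≃ₗ[F] V} (hx : ¬ Sca x) :
    Nat.card {w : V | ∃ c : F, x w = c • w} ≤ Nat.card F ^ (finrank F V - 1) + Nat.card F ^ 2 := by
  classical
  have hfd : FiniteDimensional F V := Module.Finite.of_finite
  obtain ⟨u, hu⟩ := exists_not_eig hx
  have hu0 : u ≠ 0 := by
    rintro rfl
    exact hu 0 (by rw [map_zero, smul_zero])
  set P : Submodule F V := Submodule.span F {u} with hP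
  set W : Submodule F V := Submodule.span F {u, x u} with hW
  have hP1 : finrank F P = 1 := finrank_span_singleton hu0
  have hW2 : finrank F W ≤ 2 := by
    have h1 := finrank_span_finset_le_card (R := F) ({u, x u} : Finset V)
    rw [Finset.coe_pair] at h1
    exact h1.trans Finset.card_le_two
  have hq : 1 ≤ Nat.card F := Nat.card_pos
  have c1 : Nat.card W ≤ Nat.card F ^ 2 := by
    rw [Module.natCard_eq_pow_finrank (K := F) (V := W)]
    exact Nat.pow_le_pow_right hq hW2
  have c2 : Nat.card (V ⧸ P) = Nat.card F ^ (finrank F V - 1) := by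
    rw [Module.natCard_eq_pow_finrank (K := F) (V := V ⧸ P)]
    congr 1
    have := P.finrank_quotient_add_finrank
    omega
  have hun : (u : V) ∈ W := Submodule.subset_span (by simp)
  have hxun : x u ∈ W := Submodule.subset_span (by simp)
  have key : ∀ w w' : V, (∃ c : F, x w = c • w) → (∃ c : F, x w' = c • w') → w ∉ W → w - w' ∈ P → w = w' := by
    rintro w w' ⟨c, hc⟩ ⟨c', hc'⟩ hwW hww'
    obtain ⟨t, ht⟩ := Submodule.mem_span_singleton.1 hww'
    by_contra hne
    have ht0 : t ≠ 0 := by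
      rintro rfl
      rw [zero_smul] at ht
      exact hne (sub_eq_zero.1 ht.symm)
    have h1 : t • x u = (c - c') • w + (c' * t) • u := by
      have h2 : w' = w - t • u := by rw [ht, sub_sub_cancel]
      have h3 : x (t • u) = x w - x w' := by rw [ht, map_sub]
      rw [map_smul, hc, hc', h2] at h3
      rw [h3]
      module
    by_cases hcc : c - c' = 0
    · apply hu (t⁻¹ * (c' * t))
      rw [hcc, zero_smul, zero_add] at h1
      rw [mul_smul, ← h1, smul_smul, inv_mul_cancel₀ ht0, one_smul]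
    · apply hwW
      have h2 : (c - c') • w ∈ W := by
        have : (c - c') • w = t • x u - (c' * t) • u := by rw [h1]; abel
        rw [this]
        exact W.sub_mem (W.smul_mem _ hxun) (W.smul_mem _ hun)
      have h3 := W.smul_mem (c - c')⁻¹ h2
      rwa [smul_smul, inv_mul_cancel₀ hcc, one_smul] at h3
  have hfq : Finite (V ⧸ P) := Finite.of_surjective _ P.mkQ_surjective
  have h1 : Nat.card {w : V | ∃ c : F, x w = c • w} ≤ Nat.card ((V ⧸ P) ⊕ W) := by
    refine Nat.card_le_card_of_injective (fun w => if h : (w : V) ∈ W then Sum.inr ⟨w, h⟩ else Sum.inl (P.mkQ w)) ?_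
    rintro ⟨w, hw⟩ ⟨w', hw'⟩ hab
    by_cases h : w ∈ W
    · by_cases h' : w' ∈ W
      · simp only [h, h', dif_pos, Sum.inr.injEq, Subtype.mk.injEq] at hab
        exact Subtype.ext hab
      · simp only [h, h', dif_pos] at hab
        cases hab
    · by_cases h' : w' ∈ W
      · simp only [h, h', dif_pos] at hab
        cases hab
      · simp only [h, h', dif_neg, not_false_eq_true, Sum.inl.injEq] at hab
        apply Subtype.ext
        refine key w w' hw hw' h ?_
        rw [← Submodule.ker_mkQ P, LinearMap.mem_ker, map_sub, sub_eq_zero]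
        exact hab
  rw [Nat.card_sum, c2] at h1
  omega

/-- `x (g v) ∈ g U` is rare -/
theorem cnt_eig (hn : 3 ≤ finrank F V) {x : V ≃ₗ[F] V} (hx : ¬ Sca x) {v : V} (hv : v ≠ 0) {U : Submodule F V}
    (hU : finrank F U < finrank F V) :
    Nat.card {g : V ≃ₗ[F] V // g ∈ slV F V ∧ x (g v) ∈ U.map (g : V →ₗ[F] V)} * Nat.card F ≤
      8 * Nat.card (slV F V) := by
  classical
  have hfd : FiniteDimensional F V := Module.Finite.of_finite
  set n := finrank F V with hn'
  set q := Nat.card F with hq'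
  have hq : 2 ≤ q := Finite.one_lt_card
  have hUc : Nat.card U ≤ q ^ (n - 1) := by
    rw [Module.natCard_eq_pow_finrank (K := F) (V := U)]
    exact Nat.pow_le_pow_right (by omega) (by omega)
  have h1 : Nat.card {g : V ≃ₗ[F] V // g ∈ slV F V ∧ x (g v) ∈ U.map (g : V →ₗ[F] V)} ≤
      Nat.card {p : V × (V ≃ₗ[F] V) // p.2 ∈ slV F V ∧ p.2 p.1 = v ∧ p.2 (x p.1) ∈ U} := by
    refine Nat.card_le_card_of_injective (fun g => ⟨(g.1 v, g.1⁻¹), inv_mem g.2.1, ?_, ?_⟩) ?_
    · exact g.1.symm_apply_apply v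
    · obtain ⟨y, hy, h2⟩ := g.2.2
      have h3 : g.1⁻¹ (x (g.1 v)) = y := by
        rw [← h2]
        exact g.1.symm_apply_apply y
      show g.1⁻¹ (x (g.1 v)) ∈ U
      rw [h3]
      exact hy
    · intro g g' h
      have h2 := congrArg (fun p => p.1.2) h
      exact Subtype.ext (inv_injective h2)
  have h2 := dbl (fun (w : V) (h : V ≃ₗ[F] V) => h ∈ slV F V ∧ h w = v ∧ h (x w) ∈ U) {w : V | ∃ c : F, x w = c • w}
    (q ^ (n + 1)) (4 * Nat.card (slV F V)) (2 * (q * Nat.card (slV F V))) ?_ ?_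
  · -- conclusion
    have h3 := card_eig hx
    have h4 : Nat.card V = q ^ n := Module.natCard_eq_pow_finrank (K := F)
    rw [h4] at h2
    have h5 : Nat.card {g : V ≃ₗ[F] V // g ∈ slV F V ∧ x (g v) ∈ U.map (g : V →ₗ[F] V)} * q * q ^ n ≤
        8 * Nat.card (slV F V) * q ^ n := by
      calc _ = Nat.card {g : V ≃ₗ[F] V // g ∈ slV F V ∧ x (g v) ∈ U.map (g : V →ₗ[F] V)} * q ^ (n + 1) := by ring
        _ ≤ _ := Nat.mul_le_mul_right _ h1
        _ ≤ _ := h2
        _ ≤ q ^ n * (4 * Nat.card (slV F V)) + (q ^ (n - 1) + q ^ 2) * (2 * (q * Nat.card (slV F V))) :=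
          Nat.add_le_add_left (Nat.mul_le_mul_right _ h3) _
        _ = (4 * q ^ n + 2 * (q ^ (n - 1) * q) + 2 * q ^ 3) * Nat.card (slV F V) := by ring
        _ ≤ (4 * q ^ n + 2 * q ^ n + 2 * q ^ n) * Nat.card (slV F V) := by
          have h6 : q ^ (n - 1) * q = q ^ n := by
            rw [← pow_succ]
            congr 1
            omega
          have h7 : q ^ 3 ≤ q ^ n := Nat.pow_le_pow_right (by omega) hn
          rw [h6]
          exact Nat.mul_le_mul_right _ (by omega)
        _ = _ := by ring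
    exact Nat.le_of_mul_le_mul_right h5 (by positivity)
  · -- eigenvectors
    rintro w -
    by_cases hw : w = 0
    · have h3 : Nat.card {h : V ≃ₗ[F] V // h ∈ slV F V ∧ h w = v ∧ h (x w) ∈ U} = 0 := by
        rw [Nat.card_eq_zero]
        left
        refine ⟨fun h => hv ?_⟩
        have h4 := h.2.2.1
        subst hw
        rw [← h4, map_zero]
      rw [h3, zero_mul]
      exact Nat.zero_le _
    · have h3 := cnt_le (F := F) (k := 1) (t := fun _ => w) (by omega) (linearIndependent_unique_iff.2 hw) {s | s 0 = v}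
      have h4 : Nat.card {s : Fin 1 → V | s 0 = v} ≤ 1 := by
        rw [Finite.card_le_one_iff_subsingleton]
        refine ⟨fun a b => Subtype.ext ?_⟩
        funext i
        rw [Subsingleton.elim i 0]
        exact a.2.trans b.2.symm
      have h5 : Nat.card {h : V ≃ₗ[F] V // h ∈ slV F V ∧ h w = v ∧ h (x w) ∈ U} ≤
          Nat.card {h : V ≃ₗ[F] V // h ∈ slV F V ∧ (fun _ : Fin 1 => h w) ∈ {s : Fin 1 → V | s 0 = v}} :=
        Nat.card_le_card_of_injective (fun h => ⟨h.1, h.2.1, h.2.2.1⟩) fun a b hab =>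
          Subtype.ext (by have h := congrArg Subtype.val hab; exact h)
      rw [one_mul, pow_one, ← hn'] at h3
      calc _ ≤ Nat.card {h : V ≃ₗ[F] V // h ∈ slV F V ∧ (fun _ : Fin 1 => h w) ∈ {s : Fin 1 → V | s 0 = v}} *
            q ^ (n + 1) := Nat.mul_le_mul_right _ h5
        _ = (Nat.card {h : V ≃ₗ[F] V // h ∈ slV F V ∧ (fun _ : Fin 1 => h w) ∈ {s : Fin 1 → V | s 0 = v}} *
            q ^ n) * q := by ring
        _ ≤ (2 * (Nat.card {s : Fin 1 → V | s 0 = v} * Nat.card (slV F V))) * q := Nat.mul_le_mul_right _ h3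
        _ ≤ (2 * (1 * Nat.card (slV F V))) * q :=
          Nat.mul_le_mul_right _ (Nat.mul_le_mul_left _ (Nat.mul_le_mul_right _ h4))
        _ = _ := by ring
  · -- other vectors
    intro w hw
    have hw0 : w ≠ 0 := by
      rintro rfl
      exact hw ⟨0, by rw [map_zero, smul_zero]⟩
    have hli : LinearIndependent F ![w, x w] := by
      rw [LinearIndependent.pair_iff' hw0]
      intro a ha
      exact hw ⟨a, ha.symm⟩
    have h3 := cnt_le (k := 2) (by omega) hli {s | s 0 = v ∧ s 1 ∈ U}
    have h4 : Nat.card {s : Fin 2 → V | s 0 = v ∧ s 1 ∈ U} ≤ q ^ (n - 1) := by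
      refine le_trans (Nat.card_le_card_of_injective (β := U) (fun s => ⟨s.1 1, s.2.2⟩) ?_) hUc
      intro a b hab
      apply Subtype.ext
      funext i
      have h5 := congrArg Subtype.val hab
      fin_cases i
      · exact a.2.1.trans b.2.1.symm
      · exact h5
    have h5 : Nat.card {h : V ≃ₗ[F] V // h ∈ slV F V ∧ h w = v ∧ h (x w) ∈ U} ≤
        Nat.card {h : V ≃ₗ[F] V // h ∈ slV F V ∧ (fun i : Fin 2 => h ((![w, x w] : Fin 2 → V) i)) ∈
          {s : Fin 2 → V | s 0 = v ∧ s 1 ∈ U}} :=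
      Nat.card_le_card_of_injective (fun h => ⟨h.1, h.2.1, h.2.2.1, h.2.2.2⟩) fun a b hab =>
        Subtype.ext (by have h := congrArg Subtype.val hab; exact h)
    rw [← hn', ← hq'] at h3
    have h6 : Nat.card {h : V ≃ₗ[F] V // h ∈ slV F V ∧ h w = v ∧ h (x w) ∈ U} * q ^ (n + 1) * q ^ (n - 1) ≤
        4 * Nat.card (slV F V) * q ^ (n - 1) := by
      calc _ = Nat.card {h : V ≃ₗ[F] V // h ∈ slV F V ∧ h w = v ∧ h (x w) ∈ U} * q ^ (2 * n) := by
            rw [mul_assoc, ← pow_add]
            congr 2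
            omega
        _ ≤ _ := Nat.mul_le_mul_right _ h5
        _ ≤ _ := h3
        _ ≤ 2 ^ 2 * (q ^ (n - 1) * Nat.card (slV F V)) := Nat.mul_le_mul_left _ (Nat.mul_le_mul_right _ h4)
        _ = _ := by ring
    exact Nat.le_of_mul_le_mul_right h6 (by positivity)

end

end Cfsg.Agent.H627.Ux
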