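import Cfsg.Agent.H627.Ux.Cnt
import Cfsg.Agent.H141.Ux.Stmts

/-!
# General position, linear case (S5716, helper627)

`ug2 : H141.Ux.UG2`.
-/

set_option autoImplicit false

namespace Cfsg.Agent.H627.Ux

open Module Cfsg.Agent.H847.Bs Cfsg.Agent.H141.Ux

section

variable {F V : Type*} [Field F] [AddCommGroup V] [Module F V]

/-- `V = E ⊕ E' ⊕ C₀` -/
structure Dc (e d : ℕ) (E E' C₀ : Submodule F V) : Prop where
  de : finrank F E = e
  de' : finrank F E' = d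
  disj : Disjoint E E'
  compl : IsCompl (E ⊔ E') C₀

variable {e d : ℕ} {E E' C₀ : Submodule F V}

namespace Dc

variable (h : Dc e d E E' C₀)

include h

theorem symm : Dc d e E' E C₀ := ⟨h.de', h.de, h.disj.symm, by rw [sup_comm]; exact h.compl⟩

theorem eq_zero {v : V} (h1 : v ∈ E) (h2 : v ∈ E' ⊔ C₀) : v = 0 := by
  obtain ⟨a, ha, c, hc, rfl⟩ := Submodule.mem_sup.1 h2
  have h3 : c ∈ E ⊔ E' := by
    have : c = (a + c) - a := by abel
    rw [this]
    exact Submodule.sub_mem _ (Submodule.mem_sup_left h1) (Submodule.mem_sup_right ha)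
  have h4 : c = 0 := Submodule.disjoint_def.1 h.compl.disjoint c h3 hc
  subst h4
  rw [add_zero] at h1 ⊢
  exact Submodule.disjoint_def.1 h.disj a h1 ha

theorem mem_of {v : V} (h1 : v ∈ E' ⊔ C₀) (h2 : v ∈ E ⊔ C₀) : v ∈ C₀ := by
  obtain ⟨a, ha, c, hc, rfl⟩ := Submodule.mem_sup.1 h1
  have h3 : a ∈ E ⊔ C₀ := by
    have : a = (a + c) - c := by abel
    rw [this]
    exact Submodule.sub_mem _ h2 (Submodule.mem_sup_right hc)
  have h4 := h.symm.eq_zero ha h3
  rw [h4, zero_add]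
  exact hc

theorem map (g : V ≃ₗ[F] V) : Dc e d (E.map (g : V →ₗ[F] V)) (E'.map (g : V →ₗ[F] V)) (C₀.map (g : V →ₗ[F] V)) := by
  refine ⟨?_, ?_, ?_, ?_⟩
  · rw [← h.de]; exact LinearEquiv.finrank_map_eq g E
  · rw [← h.de']; exact LinearEquiv.finrank_map_eq g E'
  · exact h.disj.map_orderIso (Submodule.orderIsoMapComap g)
  · rw [← Submodule.map_sup]
    exact OrderIso.isCompl (Submodule.orderIsoMapComap g) h.compl

variable [FiniteDimensional F V]

theorem finrank_sup : finrank F ↥(E ⊔ E') = e + d := by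
  have h1 := Submodule.finrank_sup_add_finrank_inf_eq E E'
  rw [h.disj.eq_bot, finrank_bot, h.de, h.de'] at h1
  omega

theorem finrank_C₀ : finrank F C₀ + (e + d) = finrank F V := by
  have h1 := Submodule.finrank_add_eq_of_isCompl h.compl
  rw [h.finrank_sup] at h1
  omega

theorem finrank_C : finrank F ↥(E' ⊔ C₀) + e = finrank F V := by
  have h1 := Submodule.finrank_sup_add_finrank_inf_eq E' C₀
  have h2 : E' ⊓ C₀ = ⊥ := by
    rw [eq_bot_iff, ← h.compl.inf_eq_bot]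
    exact inf_le_inf_right _ le_sup_right
  rw [h2, finrank_bot, h.de'] at h1
  have := h.finrank_C₀
  omega

/-- the deterministic part -/
theorem gpl {x : V ≃ₗ[F] V} (key : ∀ a ∈ E, ∀ b ∈ E', a + x b ∈ E' ⊔ C₀ → x.symm a + b ∈ E ⊔ C₀ → a = 0 ∧ b = 0) :
    Disjoint E (E'.map (x : V →ₗ[F] V)) ∧
      IsCompl (E ⊔ E'.map (x : V →ₗ[F] V)) ((E' ⊔ C₀) ⊓ (E ⊔ C₀).map (x : V →ₗ[F] V)) := by
  have h1 : Disjoint E (E'.map (x : V →ₗ[F] V)) := by
    rw [Submodule.disjoint_def]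
    rintro _ h2 ⟨b, hb, rfl⟩
    have h3 := key _ h2 (-b) (E'.neg_mem hb) (by
      have : (x : V →ₗ[F] V) b + x (-b) = 0 := by
        rw [map_neg]
        exact add_neg_cancel _
      rw [this]
      exact zero_mem _) (by
      have : x.symm ((x : V →ₗ[F] V) b) + -b = 0 := by
        rw [LinearEquiv.coe_coe, LinearEquiv.symm_apply_apply, add_neg_cancel]
      rw [this]
      exact zero_mem _)
    exact h3.1
  have h2 : Disjoint (E ⊔ E'.map (x : V →ₗ[F] V)) ((E' ⊔ C₀) ⊓ (E ⊔ C₀).map (x : V →ₗ[F] V)) := by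
    rw [Submodule.disjoint_def]
    rintro v hv ⟨hv1, hv2⟩
    obtain ⟨a, ha, _, ⟨b, hb, rfl⟩, rfl⟩ := Submodule.mem_sup.1 hv
    obtain ⟨c, hc, hc2⟩ := hv2
    have h3 := key a ha b hb hv1 (by
      have : x.symm a + b = c := by
        apply x.injective
        rw [map_add, LinearEquiv.apply_symm_apply]
        exact hc2.symm
      rw [this]
      exact hc)
    rw [h3.1, h3.2, map_zero, add_zero]
  refine ⟨h1, (Submodule.isCompl_iff_disjoint _ _ ?_).2 h2⟩
  have h3 := Submodule.finrank_sup_add_finrank_inf_eq E (E'.map (x : V →ₗ[F] V))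
  have h4 := Submodule.finrank_sup_add_finrank_inf_eq (E' ⊔ C₀) ((E ⊔ C₀).map (x : V →ₗ[F] V))
  rw [h1.eq_bot, finrank_bot, h.de, LinearEquiv.finrank_map_eq, h.de'] at h3
  rw [LinearEquiv.finrank_map_eq] at h4
  have h5 := h.finrank_C
  have h6 := h.symm.finrank_C
  have h7 := Submodule.finrank_le ((E' ⊔ C₀) ⊔ (E ⊔ C₀).map (x : V →ₗ[F] V))
  omega

end Dc

variable [Finite F] [Finite V]

omit [Finite F] in
theorem card_sub (W : Submodule F V) : Nat.card W = Nat.card F ^ finrank F W := Module.natCard_eq_pow_finrank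

/-- the conditions -/
def Pd (E E' C₀ : Submodule F V) (x : V ≃ₗ[F] V) (p : V × V) (h : V ≃ₗ[F] V) : Prop :=
  h ∈ slV F V ∧ p.1 ≠ 0 ∧ p.2 ≠ 0 ∧ h p.1 ∈ E ∧ h p.2 ∈ E' ∧ h (p.1 + x p.2) ∈ E' ⊔ C₀ ∧
    h (x.symm p.1 + p.2) ∈ E ⊔ C₀

/-- the special pairs -/
def Sp (x : V ≃ₗ[F] V) : Set (V × V) :=
  {p | (∃ μ : F, p.1 = μ • p.2 - x p.2) ∨ ∃ ρ : F, p.2 = ρ • p.1 - x.symm p.1}

theorem card_Sp (x : V ≃ₗ[F] V) : Nat.card (Sp x) ≤ 2 * Nat.card F ^ (finrank F V + 1) := by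
  classical
  have hV : Nat.card V = Nat.card F ^ finrank F V := Module.natCard_eq_pow_finrank
  have h1 : Sp x ⊆ (Set.range fun p : F × V => ((p.1 • p.2 - x p.2, p.2) : V × V)) ∪
      Set.range fun p : F × V => ((p.2, p.1 • p.2 - x.symm p.2) : V × V) := by
    rintro ⟨a, b⟩ (⟨μ, hμ⟩ | ⟨ρ, hρ⟩)
    · exact Or.inl ⟨(μ, b), by simp only at hμ; rw [hμ]⟩
    · exact Or.inr ⟨(ρ, a), by simp only at hρ; rw [hρ]⟩
  have h2 : ∀ f : F × V → V × V, (Set.range f).ncard ≤ Nat.card F ^ (finrank F V + 1) := by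
    intro f
    rw [← Set.image_univ]
    refine (Set.ncard_image_le (Set.toFinite _)).trans (le_of_eq ?_)
    rw [Set.ncard_univ, Nat.card_prod, hV, pow_succ, mul_comm]
  rw [Nat.card_coe_set_eq]
  calc _ ≤ _ := Set.ncard_le_ncard h1 (Set.toFinite _)
    _ ≤ _ := Set.ncard_union_le _ _
    _ ≤ _ := by
      have := h2 (fun p : F × V => ((p.1 • p.2 - x p.2, p.2) : V × V))
      have := h2 (fun p : F × V => ((p.2, p.1 • p.2 - x.symm p.2) : V × V))
      omega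

variable (h : Dc e d E E' C₀) {x : V ≃ₗ[F] V}

include h

/-- pairs in `E × E'` -/
theorem cnt_two (hn : 3 ≤ finrank F V) {p : V × V} :
    Nat.card {g : V ≃ₗ[F] V // Pd E E' C₀ x p g} * Nat.card F ^ (2 * finrank F V) ≤
      4 * Nat.card F ^ (e + d) * Nat.card (slV F V) := by
  classical
  have hfd : FiniteDimensional F V := Module.Finite.of_finite
  by_cases hli : LinearIndependent F ![p.1, p.2]
  · have h3 := cnt_le (k := 2) (by omega) hli {s | s 0 ∈ E ∧ s 1 ∈ E'}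
    have h4 : Nat.card {s : Fin 2 → V | s 0 ∈ E ∧ s 1 ∈ E'} ≤ Nat.card F ^ (e + d) := by
      refine le_trans (Nat.card_le_card_of_injective (β := E × E') (fun s => (⟨s.1 0, s.2.1⟩, ⟨s.1 1, s.2.2⟩)) ?_) ?_
      · intro a b hab
        simp only [Prod.mk.injEq, Subtype.mk.injEq] at hab
        apply Subtype.ext
        funext i
        fin_cases i
        · exact hab.1
        · exact hab.2
      · rw [Nat.card_prod, card_sub, card_sub, h.de, h.de', pow_add]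
    have h5 : Nat.card {g : V ≃ₗ[F] V // Pd E E' C₀ x p g} ≤
        Nat.card {g : V ≃ₗ[F] V // g ∈ slV F V ∧ (fun i : Fin 2 => g ((![p.1, p.2] : Fin 2 → V) i)) ∈
          {s : Fin 2 → V | s 0 ∈ E ∧ s 1 ∈ E'}} :=
      Nat.card_le_card_of_injective (fun g => ⟨g.1, g.2.1, g.2.2.2.2.1, g.2.2.2.2.2.1⟩) fun a b hab =>
        Subtype.ext (by have h := congrArg Subtype.val hab; exact h)
    calc _ ≤ _ := Nat.mul_le_mul_right _ h5
      _ ≤ _ := h3
      _ ≤ 2 ^ 2 * (Nat.card F ^ (e + d) * Nat.card (slV F V)) := Nat.mul_le_mul_left _ (Nat.mul_le_mul_right _ h4)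
      _ = _ := by ring
  · have h0 : Nat.card {g : V ≃ₗ[F] V // Pd E E' C₀ x p g} = 0 := by
      rw [Nat.card_eq_zero]
      left
      refine ⟨fun g => hli ?_⟩
      obtain ⟨g, -, h1, h2, h3, h4, -, -⟩ := g
      rw [LinearIndependent.pair_iff' h1]
      intro a ha
      apply h2
      have h5 : g p.2 ∈ E := by
        rw [← ha, map_smul]
        exact E.smul_mem _ h3
      have h6 := Submodule.disjoint_def.1 h.disj _ h5 h4
      exact (map_eq_zero_iff g g.injective).1 h6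
    rw [h0, zero_mul]
    exact Nat.zero_le _

/-- generic pairs -/
theorem cnt_gen (hn : 5 ≤ finrank F V) {p : V × V} (hp : p ∉ Sp x) :
    Nat.card {g : V ≃ₗ[F] V // Pd E E' C₀ x p g} * Nat.card F ^ (2 * finrank F V) ≤ 16 * Nat.card (slV F V) := by
  classical
  have hfd : FiniteDimensional F V := Module.Finite.of_finite
  set n := finrank F V with hn'
  set q := Nat.card F with hq'
  have hq : 2 ≤ q := Finite.one_lt_card
  obtain ⟨a, b⟩ := p
  by_cases h0 : IsEmpty {g : V ≃ₗ[F] V // Pd E E' C₀ x (a, b) g}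
  · have h1 : Nat.card {g : V ≃ₗ[F] V // Pd E E' C₀ x (a, b) g} = 0 := Nat.card_eq_zero.2 (Or.inl h0)
    rw [h1, zero_mul]
    exact Nat.zero_le _
  rw [not_isEmpty_iff] at h0
  obtain ⟨g, hg, ha0, hb0, ha, hb, h1, h2⟩ := h0
  simp only at ha0 hb0 ha hb h1 h2
  have hab : LinearIndependent F ![a, b] := by
    rw [LinearIndependent.pair_iff' ha0]
    intro t ht
    apply hb0
    have h5 : g b ∈ E := by
      rw [← ht, map_smul]
      exact E.smul_mem _ ha
    have h6 := Submodule.disjoint_def.1 h.disj _ h5 hb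
    exact (map_eq_zero_iff g g.injective).1 h6
  -- three vectors
  have h3li : LinearIndependent F ![a, b, x b] := by
    have h4 : LinearIndependent F (Fin.snoc ![a, b] (x b) : Fin 3 → V) := by
      rw [linearIndependent_finSnoc]
      refine ⟨hab, fun hmem => hp (Or.inl ?_)⟩
      rw [Matrix.range_cons, Matrix.range_cons, Matrix.range_empty, Set.union_empty, Set.singleton_union,
        Submodule.mem_span_pair] at hmem
      obtain ⟨l, μ, hlμ⟩ := hmem
      have h5 : (1 + l) • g a = 0 := by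
        refine h.eq_zero (E.smul_mem _ ha) ?_
        have h6 : (1 + l) • g a = g (a + x b) - μ • g b := by
          rw [← hlμ]
          simp only [map_add, map_smul]
          module
        rw [h6]
        exact Submodule.sub_mem _ h1 (Submodule.smul_mem _ _ (Submodule.mem_sup_left hb))
      have h6 : 1 + l = 0 := by
        rcases smul_eq_zero.1 h5 with h6 | h6
        · exact h6
        · exact absurd ((map_eq_zero_iff g g.injective).1 h6) ha0
      refine ⟨μ, ?_⟩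
      have h7 : l = -1 := by linear_combination h6
      simp only
      rw [← hlμ, h7]
      module
    convert h4 using 1
    ext i
    fin_cases i <;> rfl
  by_cases h4 : x.symm a ∈ Submodule.span F {a, b, x b}
  · -- dimension three
    obtain ⟨ρ, σ, τ, hρ⟩ := Submodule.mem_span_triple.1 h4
    have hτ : τ ≠ 0 := by
      rintro rfl
      apply hp
      right
      have h5 : (σ + 1) • g b = 0 := by
        refine h.symm.eq_zero (E'.smul_mem _ hb) ?_
        have h6 : (σ + 1) • g b = g (x.symm a + b) - ρ • g a := by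
          rw [← hρ]
          simp only [map_add, map_smul]
          module
        rw [h6]
        exact Submodule.sub_mem _ h2 (Submodule.smul_mem _ _ (Submodule.mem_sup_left ha))
      have h6 : σ + 1 = 0 := by
        rcases smul_eq_zero.1 h5 with h6 | h6
        · exact h6
        · exact absurd ((map_eq_zero_iff g g.injective).1 h6) hb0
      refine ⟨ρ, ?_⟩
      have h7 : σ = -1 := by linear_combination h6
      simp only
      rw [← hρ, h7]
      module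
    have h5 := cnt_le (k := 3) (by omega) h3li
      {s | s 0 ∈ E ∧ s 1 ∈ E' ∧ s 0 + s 2 ∈ E' ⊔ C₀ ∧ ρ • s 0 + σ • s 1 + τ • s 2 + s 1 ∈ E ⊔ C₀}
    have h6 : Nat.card {s : Fin 3 → V | s 0 ∈ E ∧ s 1 ∈ E' ∧ s 0 + s 2 ∈ E' ⊔ C₀ ∧
        ρ • s 0 + σ • s 1 + τ • s 2 + s 1 ∈ E ⊔ C₀} ≤ q ^ n := by
      have hmem : ∀ s : Fin 3 → V, s 0 ∈ E ∧ s 1 ∈ E' ∧ s 0 + s 2 ∈ E' ⊔ C₀ ∧
          ρ • s 0 + σ • s 1 + τ • s 2 + s 1 ∈ E ⊔ C₀ → s 0 + s 2 + (τ⁻¹ * (σ + 1)) • s 1 ∈ C₀ := by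
        rintro s ⟨s1, s2, s3, s4⟩
        refine h.mem_of (Submodule.add_mem _ s3 (Submodule.smul_mem _ _ (Submodule.mem_sup_left s2))) ?_
        have h7 : s 0 + s 2 + (τ⁻¹ * (σ + 1)) • s 1 =
            τ⁻¹ • ((ρ • s 0 + σ • s 1 + τ • s 2 + s 1) + (τ - ρ) • s 0) := by
          have h8 : s 0 + s 2 = τ⁻¹ • (τ • (s 0 + s 2)) := by rw [smul_smul, inv_mul_cancel₀ hτ, one_smul]
          rw [h8, mul_smul, ← smul_add]
          congr 1
          module
        rw [h7]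
        exact Submodule.smul_mem _ _ (Submodule.add_mem _ s4 (Submodule.smul_mem _ _ (Submodule.mem_sup_left s1)))
      refine le_trans (Nat.card_le_card_of_injective (β := E × E' × C₀)
        (fun s => (⟨s.1 0, s.2.1⟩, ⟨s.1 1, s.2.2.1⟩, ⟨_, hmem s.1 s.2⟩)) ?_) ?_
      · intro s s' hss
        simp only [Prod.mk.injEq, Subtype.mk.injEq] at hss
        obtain ⟨e0, e1, e2⟩ := hss
        apply Subtype.ext
        funext i
        fin_cases i
        · exact e0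
        · exact e1
        · show s.1 2 = s'.1 2
          rw [e0, e1] at e2
          exact add_left_cancel (add_right_cancel e2)
      · rw [Nat.card_prod, Nat.card_prod, card_sub, card_sub, card_sub, h.de, h.de', ← pow_add, ← pow_add]
        refine Nat.pow_le_pow_right (by omega) ?_
        have := h.finrank_C₀
        omega
    have h7 : Nat.card {g : V ≃ₗ[F] V // Pd E E' C₀ x (a, b) g} ≤
        Nat.card {g : V ≃ₗ[F] V // g ∈ slV F V ∧ (fun i : Fin 3 => g ((![a, b, x b] : Fin 3 → V) i)) ∈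
          {s : Fin 3 → V | s 0 ∈ E ∧ s 1 ∈ E' ∧ s 0 + s 2 ∈ E' ⊔ C₀ ∧
            ρ • s 0 + σ • s 1 + τ • s 2 + s 1 ∈ E ⊔ C₀}} := by
      refine Nat.card_le_card_of_injective (fun g => ⟨g.1, g.2.1, g.2.2.2.2.1, g.2.2.2.2.2.1, ?_, ?_⟩) fun a b hab =>
        Subtype.ext (by have h := congrArg Subtype.val hab; exact h)
      · have := g.2.2.2.2.2.2.1
        rw [map_add] at this
        exact this
      · have := g.2.2.2.2.2.2.2
        simp only at this
        rw [← hρ] at this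
        simp only [map_add, map_smul] at this
        exact this
    rw [← hn', ← hq'] at h5
    have h8 : Nat.card {g : V ≃ₗ[F] V // Pd E E' C₀ x (a, b) g} * q ^ (2 * n) * q ^ n ≤
        16 * Nat.card (slV F V) * q ^ n := by
      calc _ = Nat.card {g : V ≃ₗ[F] V // Pd E E' C₀ x (a, b) g} * q ^ (3 * n) := by
            rw [mul_assoc, ← pow_add]
            congr 2
            omega
        _ ≤ _ := Nat.mul_le_mul_right _ h7
        _ ≤ _ := h5
        _ ≤ 2 ^ 3 * (q ^ n * Nat.card (slV F V)) := Nat.mul_le_mul_left _ (Nat.mul_le_mul_right _ h6)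
        _ = 8 * Nat.card (slV F V) * q ^ n := by ring
        _ ≤ _ := by gcongr; norm_num
    exact Nat.le_of_mul_le_mul_right h8 (by positivity)
  · -- dimension four
    have h4li : LinearIndependent F ![a, b, x b, x.symm a] := by
      have h5 : LinearIndependent F (Fin.snoc ![a, b, x b] (x.symm a) : Fin 4 → V) := by
        rw [linearIndependent_finSnoc]
        refine ⟨h3li, fun hmem => h4 ?_⟩
        have e1 : Set.range ![a, b, x b] = {a, b, x b} := by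
          rw [Matrix.range_cons, Matrix.range_cons, Matrix.range_cons, Matrix.range_empty, Set.union_empty]
          rfl
        rwa [e1] at hmem
      convert h5 using 1
      ext i
      fin_cases i <;> rfl
    have h5 := cnt_le (k := 4) (by omega) h4li {s | s 0 ∈ E ∧ s 1 ∈ E' ∧ s 0 + s 2 ∈ E' ⊔ C₀ ∧ s 3 + s 1 ∈ E ⊔ C₀}
    have h6 : Nat.card {s : Fin 4 → V | s 0 ∈ E ∧ s 1 ∈ E' ∧ s 0 + s 2 ∈ E' ⊔ C₀ ∧ s 3 + s 1 ∈ E ⊔ C₀} ≤ q ^ (2 * n) := by
      refine le_trans (Nat.card_le_card_of_injective (β := E × E' × ↥(E' ⊔ C₀) × ↥(E ⊔ C₀))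
        (fun s => (⟨s.1 0, s.2.1⟩, ⟨s.1 1, s.2.2.1⟩, ⟨_, s.2.2.2.1⟩, ⟨_, s.2.2.2.2⟩)) ?_) ?_
      · intro s s' hss
        simp only [Prod.mk.injEq, Subtype.mk.injEq] at hss
        obtain ⟨e0, e1, e2, e3⟩ := hss
        apply Subtype.ext
        funext i
        fin_cases i
        · exact e0
        · exact e1
        · show s.1 2 = s'.1 2
          rw [e0] at e2
          exact add_left_cancel e2
        · show s.1 3 = s'.1 3
          rw [e1] at e3
          exact add_right_cancel e3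
      · rw [Nat.card_prod, Nat.card_prod, Nat.card_prod, card_sub, card_sub, card_sub, card_sub, h.de, h.de', ← pow_add,
          ← pow_add, ← pow_add]
        refine Nat.pow_le_pow_right (by omega) ?_
        have := h.finrank_C
        have := h.symm.finrank_C
        omega
    have h7 : Nat.card {g : V ≃ₗ[F] V // Pd E E' C₀ x (a, b) g} ≤
        Nat.card {g : V ≃ₗ[F] V // g ∈ slV F V ∧ (fun i : Fin 4 => g ((![a, b, x b, x.symm a] : Fin 4 → V) i)) ∈
          {s : Fin 4 → V | s 0 ∈ E ∧ s 1 ∈ E' ∧ s 0 + s 2 ∈ E' ⊔ C₀ ∧ s 3 + s 1 ∈ E ⊔ C₀}} := by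
      refine Nat.card_le_card_of_injective (fun g => ⟨g.1, g.2.1, g.2.2.2.2.1, g.2.2.2.2.2.1, ?_, ?_⟩) fun a b hab =>
        Subtype.ext (by have h := congrArg Subtype.val hab; exact h)
      · have := g.2.2.2.2.2.2.1
        rw [map_add] at this
        exact this
      · have := g.2.2.2.2.2.2.2
        rw [map_add] at this
        exact this
    rw [← hn', ← hq'] at h5
    have h8 : Nat.card {g : V ≃ₗ[F] V // Pd E E' C₀ x (a, b) g} * q ^ (2 * n) * q ^ (2 * n) ≤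
        16 * Nat.card (slV F V) * q ^ (2 * n) := by
      calc _ = Nat.card {g : V ≃ₗ[F] V // Pd E E' C₀ x (a, b) g} * q ^ (4 * n) := by
            rw [mul_assoc, ← pow_add]
            congr 2
            omega
        _ ≤ _ := Nat.mul_le_mul_right _ h7
        _ ≤ _ := h5
        _ ≤ 2 ^ 4 * (q ^ (2 * n) * Nat.card (slV F V)) := Nat.mul_le_mul_left _ (Nat.mul_le_mul_right _ h6)
        _ = _ := by ring
    exact Nat.le_of_mul_le_mul_right h8 (by positivity)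

/-- the number of configurations -/
theorem cnt_pairs (hn : 5 ≤ finrank F V) (hn2 : e + d + 1 ≤ finrank F V) :
    Nat.card {p : (V × V) × (V ≃ₗ[F] V) // Pd E E' C₀ x p.1 p.2} ≤ 24 * Nat.card (slV F V) := by
  have hfd : FiniteDimensional F V := Module.Finite.of_finite
  set n := finrank F V with hn'
  set q := Nat.card F with hq'
  have hq : 2 ≤ q := Finite.one_lt_card
  have h1 := dbl (Pd E E' C₀ x) (Sp x) (q ^ (2 * n)) (16 * Nat.card (slV F V))
    (4 * q ^ (e + d) * Nat.card (slV F V)) (fun p _ => cnt_two h (by omega)) (fun p hp => cnt_gen h hn hp)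
  have h2 : Nat.card (V × V) = q ^ (2 * n) := by
    rw [Nat.card_prod, Module.natCard_eq_pow_finrank (K := F) (V := V), ← pow_add]
    congr 1
    omega
  rw [h2] at h1
  refine Nat.le_of_mul_le_mul_right (c := q ^ (2 * n)) ?_ (by positivity)
  calc _ ≤ _ := h1
    _ ≤ q ^ (2 * n) * (16 * Nat.card (slV F V)) + 2 * q ^ (n + 1) * (4 * q ^ (e + d) * Nat.card (slV F V)) :=
      Nat.add_le_add_left (Nat.mul_le_mul_right _ (card_Sp x)) _
    _ = (16 * q ^ (2 * n) + 8 * q ^ (n + 1 + (e + d))) * Nat.card (slV F V) := by rw [pow_add q (n + 1)]; ring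
    _ ≤ (16 * q ^ (2 * n) + 8 * q ^ (2 * n)) * Nat.card (slV F V) := by
      have h3 : q ^ (n + 1 + (e + d)) ≤ q ^ (2 * n) := Nat.pow_le_pow_right (by omega) (by omega)
      exact Nat.mul_le_mul_right _ (by omega)
    _ = _ := by ring

/-- pairs of blocks in bad position -/
theorem cnt_bad (hn : 5 ≤ finrank F V) (hn2 : e + d + 1 ≤ finrank F V) :
    Nat.card {g : V ≃ₗ[F] V // g ∈ slV F V ∧ ∃ a b : V, (a ≠ 0 ∨ b ≠ 0) ∧ a ∈ E.map (g : V →ₗ[F] V) ∧
      b ∈ E'.map (g : V →ₗ[F] V) ∧ a + x b ∈ (E' ⊔ C₀).map (g : V →ₗ[F] V) ∧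
      x.symm a + b ∈ (E ⊔ C₀).map (g : V →ₗ[F] V)} * (Nat.card F - 1) ≤ 24 * Nat.card (slV F V) := by
  classical
  refine le_trans ?_ (cnt_pairs h (x := x) hn hn2)
  rw [← Nat.card_units, ← Nat.card_prod]
  have hmap : ∀ (g : V ≃ₗ[F] V) (W : Submodule F V) (v : V), v ∈ W.map (g : V →ₗ[F] V) ↔ g⁻¹ v ∈ W := by
    intro g W v
    constructor
    · rintro ⟨y, hy, rfl⟩
      have : g⁻¹ ((g : V →ₗ[F] V) y) = y := g.symm_apply_apply y
      rw [this]
      exact hy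
    · intro hv
      exact ⟨g⁻¹ v, hv, g.apply_symm_apply v⟩
  have hex : ∀ g : {g : V ≃ₗ[F] V // g ∈ slV F V ∧ ∃ a b : V, (a ≠ 0 ∨ b ≠ 0) ∧ a ∈ E.map (g : V →ₗ[F] V) ∧
      b ∈ E'.map (g : V →ₗ[F] V) ∧ a + x b ∈ (E' ⊔ C₀).map (g : V →ₗ[F] V) ∧
      x.symm a + b ∈ (E ⊔ C₀).map (g : V →ₗ[F] V)}, ∃ p : V × V, ∀ c : Fˣ,
      Pd E E' C₀ x ((c : F) • p.1, (c : F) • p.2) g.1⁻¹ := by
    rintro ⟨g, hg, a, b, h0, h1, h2, h3, h4⟩
    rw [hmap] at h1 h2 h3 h4
    have hb : b ≠ 0 := by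
      rintro rfl
      have ha : a ≠ 0 := h0.resolve_right (fun h => h rfl)
      apply ha
      rw [map_zero, add_zero] at h3
      exact (map_eq_zero_iff _ (g⁻¹).injective).1 (h.eq_zero h1 h3)
    have ha : a ≠ 0 := by
      rintro rfl
      apply hb
      rw [map_zero, zero_add] at h4
      exact (map_eq_zero_iff _ (g⁻¹).injective).1 (h.symm.eq_zero h2 h4)
    refine ⟨(a, b), fun c => ⟨inv_mem hg, ?_, ?_, ?_, ?_, ?_, ?_⟩⟩
    · exact smul_ne_zero c.ne_zero ha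
    · exact smul_ne_zero c.ne_zero hb
    · simp only [map_smul]
      exact E.smul_mem _ h1
    · simp only [map_smul]
      exact E'.smul_mem _ h2
    · simp only [map_smul, ← smul_add]
      exact Submodule.smul_mem _ _ h3
    · simp only [map_smul, ← smul_add]
      exact Submodule.smul_mem _ _ h4
  choose f hf using hex
  refine Nat.card_le_card_of_injective (fun p => ⟨(((p.2 : F) • (f p.1).1, (p.2 : F) • (f p.1).2), p.1.1⁻¹), hf p.1 p.2⟩) ?_
  rintro ⟨g, c⟩ ⟨g', c'⟩ hab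
  simp only [Subtype.mk.injEq, Prod.mk.injEq] at hab
  obtain ⟨⟨h1, -⟩, h2⟩ := hab
  have h3 : g = g' := Subtype.ext (inv_injective h2)
  subst h3
  have h4 : (f g).1 ≠ 0 := by
    have := (hf g 1).2.1
    simpa using this
  have h5 : c = c' := by
    apply Units.ext
    have h6 : ((c : F) - (c' : F)) • (f g).1 = 0 := by rw [sub_smul, h1, sub_self]
    rcases smul_eq_zero.1 h6 with h7 | h7
    · exact sub_eq_zero.1 h7
    · exact absurd h7 h4
  rw [h5]

end

/-- **General position, linear case.** -/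
theorem ug2 : UG2 := by
  refine ⟨72, ?_⟩
  intro F V _ _ _ _ _ e d hF he hd hde hn E₀ E₀' C₀ h1 h2 h3 h4 x hx hxs
  classical
  have hfinV : Finite V := Module.finite_of_finite F
  have hD : Dc e d E₀ E₀' C₀ := ⟨h1, h2, h3, h4⟩
  set q := Nat.card F with hq
  set N := Nat.card (slV F V) with hN
  obtain ⟨v, hv, hv0⟩ : ∃ v ∈ E₀, v ≠ 0 := Submodule.exists_mem_ne_zero_of_ne_bot (by
    rintro rfl
    rw [finrank_bot] at h1
    omega)
  obtain ⟨v', hv', hv0'⟩ : ∃ v ∈ E₀', v ≠ 0 := Submodule.exists_mem_ne_zero_of_ne_bot (by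
    rintro rfl
    rw [finrank_bot] at h2
    omega)
  have hC := hD.finrank_C
  have hC' := hD.symm.finrank_C
  have hxs' : ¬ Sca x.symm := by
    rintro ⟨c, hc⟩
    have hc0 : c ≠ 0 := by
      rintro rfl
      apply hv0
      have := hc v
      rw [zero_smul] at this
      exact (map_eq_zero_iff _ x.symm.injective).1 this
    apply hxs
    refine ⟨c⁻¹, fun w => ?_⟩
    have h5 := hc (x w)
    rw [LinearEquiv.symm_apply_apply] at h5
    rw [eq_inv_smul_iff₀ hc0]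
    exact h5.symm
  have b1 := cnt_bad hD (x := x) (by omega) (by omega)
  have ba := cnt_eig (by omega) hxs hv0' (U := E₀' ⊔ C₀) (by omega)
  have bb := cnt_eig (by omega) hxs' hv0 (U := E₀ ⊔ C₀) (by omega)
  have be := cnt_eig (by omega) hxs hv0 (U := E₀' ⊔ C₀) (by omega)
  rw [← hq, ← hN] at b1 ba bb be
  set B1 := Nat.card {g : V ≃ₗ[F] V // g ∈ slV F V ∧ ∃ a b : V, (a ≠ 0 ∨ b ≠ 0) ∧ a ∈ E₀.map (g : V →ₗ[F] V) ∧
      b ∈ E₀'.map (g : V →ₗ[F] V) ∧ a + x b ∈ (E₀' ⊔ C₀).map (g : V →ₗ[F] V) ∧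
      x.symm a + b ∈ (E₀ ⊔ C₀).map (g : V →ₗ[F] V)} with hB1
  set Ba := Nat.card {g : V ≃ₗ[F] V // g ∈ slV F V ∧ x (g v') ∈ (E₀' ⊔ C₀).map (g : V →ₗ[F] V)} with hBa
  set Bb := Nat.card {g : V ≃ₗ[F] V // g ∈ slV F V ∧ x.symm (g v) ∈ (E₀ ⊔ C₀).map (g : V →ₗ[F] V)} with hBb
  set Be := Nat.card {g : V ≃ₗ[F] V // g ∈ slV F V ∧ x (g v) ∈ (E₀' ⊔ C₀).map (g : V →ₗ[F] V)} with hBe
  have key : cnt (slV F V) (fun g => ¬ GPL x (E₀.map (g : V →ₗ[F] V)) (E₀'.map (g : V →ₗ[F] V))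
      (C₀.map (g : V →ₗ[F] V))) ≤ B1 + Ba + Bb + Be := by
    have e1 : {g : V ≃ₗ[F] V | g ∈ slV F V ∧ ¬ GPL x (E₀.map (g : V →ₗ[F] V)) (E₀'.map (g : V →ₗ[F] V))
        (C₀.map (g : V →ₗ[F] V))} ⊆
        {g : V ≃ₗ[F] V | g ∈ slV F V ∧ ∃ a b : V, (a ≠ 0 ∨ b ≠ 0) ∧ a ∈ E₀.map (g : V →ₗ[F] V) ∧
          b ∈ E₀'.map (g : V →ₗ[F] V) ∧ a + x b ∈ (E₀' ⊔ C₀).map (g : V →ₗ[F] V) ∧
          x.symm a + b ∈ (E₀ ⊔ C₀).map (g : V →ₗ[F] V)} ∪
        {g : V ≃ₗ[F] V | g ∈ slV F V ∧ x (g v') ∈ (E₀' ⊔ C₀).map (g : V →ₗ[F] V)} ∪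
        {g : V ≃ₗ[F] V | g ∈ slV F V ∧ x.symm (g v) ∈ (E₀ ⊔ C₀).map (g : V →ₗ[F] V)} ∪
        {g : V ≃ₗ[F] V | g ∈ slV F V ∧ x (g v) ∈ (E₀' ⊔ C₀).map (g : V →ₗ[F] V)} := by
      rintro g ⟨hg, hgp⟩
      by_contra hcon
      simp only [Set.mem_union, Set.mem_ofPred_eq, not_or, not_and] at hcon
      obtain ⟨⟨⟨c1, ca⟩, cb⟩, ce⟩ := hcon
      have c1 := c1 hg
      have ca := ca hg
      have cb := cb hg
      have ce := ce hg
      rw [Submodule.map_sup] at ca cb ce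
      have hDg := hD.map g
      have h5 := hDg.gpl (x := x) (fun a ha b hb h6 h7 => by
        by_contra h8
        apply c1
        refine ⟨a, b, ?_, ha, hb, ?_, ?_⟩
        · by_contra h9
          push Not at h9
          exact h8 h9
        · rw [Submodule.map_sup]
          exact h6
        · rw [Submodule.map_sup]
          exact h7)
      apply hgp
      refine ⟨h5.1, h5.2, ?_, ?_, ?_⟩
      · exact ⟨g v', ⟨v', hv', rfl⟩, ca⟩
      · refine ⟨g v, ⟨v, hv, rfl⟩, ?_⟩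
        rintro ⟨y, hy, h6⟩
        apply cb
        rw [← h6]
        have : x.symm ((x : V →ₗ[F] V) y) = y := x.symm_apply_apply y
        rw [this]
        exact hy
      · exact ⟨g v, ⟨v, hv, rfl⟩, ce⟩
    have e2 := Set.ncard_le_ncard e1 (Set.toFinite _)
    have e3 := Set.ncard_union_le
      ({g : V ≃ₗ[F] V | g ∈ slV F V ∧ ∃ a b : V, (a ≠ 0 ∨ b ≠ 0) ∧ a ∈ E₀.map (g : V →ₗ[F] V) ∧
          b ∈ E₀'.map (g : V →ₗ[F] V) ∧ a + x b ∈ (E₀' ⊔ C₀).map (g : V →ₗ[F] V) ∧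
          x.symm a + b ∈ (E₀ ⊔ C₀).map (g : V →ₗ[F] V)} ∪
        {g : V ≃ₗ[F] V | g ∈ slV F V ∧ x (g v') ∈ (E₀' ⊔ C₀).map (g : V →ₗ[F] V)} ∪
        {g : V ≃ₗ[F] V | g ∈ slV F V ∧ x.symm (g v) ∈ (E₀ ⊔ C₀).map (g : V →ₗ[F] V)})
        {g : V ≃ₗ[F] V | g ∈ slV F V ∧ x (g v) ∈ (E₀' ⊔ C₀).map (g : V →ₗ[F] V)}
    have e4 := Set.ncard_union_le
      ({g : V ≃ₗ[F] V | g ∈ slV F V ∧ ∃ a b : V, (a ≠ 0 ∨ b ≠ 0) ∧ a ∈ E₀.map (g : V →ₗ[F] V) ∧
          b ∈ E₀'.map (g : V →ₗ[F] V) ∧ a + x b ∈ (E₀' ⊔ C₀).map (g : V →ₗ[F] V) ∧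
          x.symm a + b ∈ (E₀ ⊔ C₀).map (g : V →ₗ[F] V)} ∪
        {g : V ≃ₗ[F] V | g ∈ slV F V ∧ x (g v') ∈ (E₀' ⊔ C₀).map (g : V →ₗ[F] V)})
        {g : V ≃ₗ[F] V | g ∈ slV F V ∧ x.symm (g v) ∈ (E₀ ⊔ C₀).map (g : V →ₗ[F] V)}
    have e5 := Set.ncard_union_le
      {g : V ≃ₗ[F] V | g ∈ slV F V ∧ ∃ a b : V, (a ≠ 0 ∨ b ≠ 0) ∧ a ∈ E₀.map (g : V →ₗ[F] V) ∧
          b ∈ E₀'.map (g : V →ₗ[F] V) ∧ a + x b ∈ (E₀' ⊔ C₀).map (g : V →ₗ[F] V) ∧
          x.symm a + b ∈ (E₀ ⊔ C₀).map (g : V →ₗ[F] V)}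
        {g : V ≃ₗ[F] V | g ∈ slV F V ∧ x (g v') ∈ (E₀' ⊔ C₀).map (g : V →ₗ[F] V)}
    have e6 := e2.trans (e3.trans (Nat.add_le_add_right (e4.trans (Nat.add_le_add_right e5 _)) _))
    exact e6
  have h5 : B1 * q ≤ 48 * N := by
    have h6 : q ≤ 2 * (q - 1) := by omega
    calc B1 * q ≤ B1 * (2 * (q - 1)) := Nat.mul_le_mul_left _ h6
      _ = 2 * (B1 * (q - 1)) := by ring
      _ ≤ 2 * (24 * N) := Nat.mul_le_mul_left _ b1
      _ = _ := by ring
  have h6 : cnt (slV F V) (fun g => ¬ GPL x (E₀.map (g : V →ₗ[F] V)) (E₀'.map (g : V →ₗ[F] V))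
      (C₀.map (g : V →ₗ[F] V))) * q ≤ 72 * N := by
    calc _ ≤ (B1 + Ba + Bb + Be) * q := Nat.mul_le_mul_right _ key
      _ = B1 * q + Ba * q + Bb * q + Be * q := by ring
      _ ≤ 72 * N := by omega
  exact_mod_cast h6

end Cfsg.Agent.H627.Ux
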